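import Cfsg.Agent.PLocal.ConjFam
import Mathlib.GroupTheory.Focal
import Mathlib.Tactic.Group

/-! Focal subgroup generated by local conjugations at tame Sylow intersections. -/

set_option autoImplicit false

namespace Cfsg.Agent.H7

open Cfsg.Agent.ConjFam
open scoped commutatorElement

variable {G : Type*} [Group G]

/-- `P ∩ Q` is a tame intersection. -/
def Tame (p : ℕ) (P Q : Subgroup G) : Prop :=
  ¬ p ∣ (P ⊓ Subgroup.normalizer ((P ⊓ Q : Subgroup G) : Set G)).relIndex
      (Subgroup.normalizer ((P ⊓ Q : Subgroup G) : Set G)) ∧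
  ¬ p ∣ (Q ⊓ Subgroup.normalizer ((P ⊓ Q : Subgroup G) : Set G)).relIndex
      (Subgroup.normalizer ((P ⊓ Q : Subgroup G) : Set G))

/-- Congruence modulo a subgroup. -/
def Rel (F : Subgroup G) (a b : G) : Prop := a⁻¹ * b ∈ F

theorem Rel.symm {F : Subgroup G} {a b : G} (h : Rel F a b) : Rel F b a := by
  have := F.inv_mem h
  simpa [Rel] using this

theorem Rel.trans {F : Subgroup G} {a b c : G} (h : Rel F a b) (h' : Rel F b c) : Rel F a c := by
  have := F.mul_mem h h'
  simpa [Rel, mul_assoc] using this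

theorem rel_refl (F : Subgroup G) (a : G) : Rel F a a := by simp [Rel]

/-- The elements of `N(V)` moving every element of `V` inside its class mod `F`. -/
def relStab (F V : Subgroup G) : Subgroup G where
  carrier := {g | g ∈ Subgroup.normalizer (V : Set G) ∧ ∀ t ∈ V, Rel F t (g * t * g⁻¹)}
  one_mem' := ⟨Subgroup.one_mem _, fun t _ => by simp [rel_refl]⟩
  mul_mem' := by
    rintro a b ⟨ha, ha'⟩ ⟨hb, hb'⟩
    refine ⟨Subgroup.mul_mem _ ha hb, fun t ht => ?_⟩
    have h2 := ha' (b * t * b⁻¹) ((Subgroup.mem_normalizer_iff.mp hb t).mp ht)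
    have h3 := (hb' t ht).trans h2
    simpa [mul_assoc] using h3
  inv_mem' := by
    rintro a ⟨ha, ha'⟩
    refine ⟨Subgroup.inv_mem _ ha, fun t ht => ?_⟩
    have ht' : a⁻¹ * t * a ∈ V :=
      (Subgroup.mem_normalizer_iff.mp ha _).mpr (by simpa [mul_assoc] using ht)
    have := (ha' _ ht').symm
    simpa [mul_assoc] using this

variable [Finite G] {p : ℕ} [hp : Fact p.Prime]

theorem rel_of_fusion (P : Sylow p G) (F : Subgroup G)
    (hNP : ∀ a ∈ (P : Subgroup G), ∀ g ∈ Subgroup.normalizer ((P : Subgroup G) : Set G),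
      Rel F a (g * a * g⁻¹))
    (htame : ∀ Q : Sylow p G, Tame p (P : Subgroup G) (Q : Subgroup G) →
      ∀ x : G, x ∈ Subgroup.normalizer (((P : Subgroup G) ⊓ (Q : Subgroup G) : Subgroup G) : Set G) →
        (∃ k : ℕ, orderOf x = p ^ k) →
        ∀ t ∈ (P : Subgroup G) ⊓ (Q : Subgroup G), Rel F t (x * t * x⁻¹)) :
    ∀ (k : ℕ) (T : Subgroup G) (g : G), Nat.card (P : Subgroup G) - Nat.card T = k →
      T ≤ (P : Subgroup G) → T.map (MulAut.conj g).toMonoidHom ≤ (P : Subgroup G) →
      ∀ t ∈ T, Rel F t (g * t * g⁻¹) := by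
  have hS : IsPGroup p (P : Subgroup G) := P.isPGroup'
  have hcle : ∀ U : Subgroup G, U ≤ (P : Subgroup G) → Nat.card U ≤ Nat.card (P : Subgroup G) :=
    fun U h => Nat.le_of_dvd Nat.card_pos (Subgroup.card_dvd_of_le h)
  intro k
  induction k using Nat.strong_induction_on with
  | _ k ih =>
  intro T g hk hTP hgP
  -- fusion of any larger subgroup is already controlled
  have hbig : ∀ (R : Subgroup G), Nat.card T < Nat.card R → R ≤ (P : Subgroup G) → ∀ c : G,
      R.map (MulAut.conj c).toMonoidHom ≤ (P : Subgroup G) → ∀ t ∈ R, Rel F t (c * t * c⁻¹) := by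
    intro R hR hRP c hc
    refine ih _ ?_ R c rfl hRP hc
    have := hcle R hRP
    omega
  rcases hTP.eq_or_lt with hTeq | hlt
  · intro t ht
    subst hTeq
    have hgT := eq_of_le_of_card hgP (by rw [card_conjMap])
    exact hNP t ht g (mem_normalizer_iff_conjMap.mpr hgT)
  -- a conjugate `V` of `T` in `P` with Sylow normalizer in `P`
  obtain ⟨V, m, hVP, hm, hgood⟩ : ∃ (V : Subgroup G) (m : G), V ≤ (P : Subgroup G) ∧
      T.map (MulAut.conj m).toMonoidHom = V ∧ Good p (P : Subgroup G) V := by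
    let M := Subgroup.normalizer (T : Set G)
    let R0 : Sylow p ↥M := default
    have hTle : T.subgroupOf M ≤ (R0 : Subgroup ↥M) := by
      haveI : (T.subgroupOf M).Normal :=
        (Subgroup.normal_subgroupOf_iff_le_normalizer Subgroup.le_normalizer).mpr le_rfl
      have hpT : IsPGroup p ↥(T.subgroupOf M) := (hS.to_le hlt.le).comap_subtype
      exact hpT.le_sylow_of_normal R0
    set R := (R0 : Subgroup ↥M).map M.subtype with hR
    obtain ⟨m, -, hm⟩ := exists_conj_into_in (T := (P : Subgroup G)) (H := ⊤) le_top hS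
      (by rw [Subgroup.relIndex_top_right]; exact P.not_dvd_index)
      (le_top : R ≤ ⊤) (R0.isPGroup'.map _)
    refine ⟨_, m, ?_, rfl, ?_⟩
    · refine le_trans (Subgroup.map_mono ?_) hm
      intro x hx
      exact ⟨⟨x, Subgroup.le_normalizer hx⟩, hTle (Subgroup.mem_subgroupOf.mpr hx), rfl⟩
    · unfold Good
      rw [← conjMap_normalizer]
      have hle : R.map (MulAut.conj m).toMonoidHom ≤ (P : Subgroup G) ⊓ M.map (MulAut.conj m).toMonoidHom :=
        le_inf hm (Subgroup.map_mono (Subgroup.map_subtype_le _))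
      intro hd
      have h2 := dvd_trans hd (Subgroup.relIndex_dvd_of_le_left (M.map (MulAut.conj m).toMonoidHom) hle)
      rw [Subgroup.relIndex_map_map_of_injective _ _ (MulAut.conj m).injective, hR, Subgroup.relIndex,
        Subgroup.subgroupOf, Subgroup.comap_map_eq_self_of_injective M.subtype_injective] at h2
      exact R0.not_dvd_index h2
  have hVlt : V < (P : Subgroup G) :=
    lt_of_le_of_ne hVP fun he => (card_lt hlt).ne (by rw [← he, ← hm, card_conjMap])
  have hVcard : Nat.card T = Nat.card V := by rw [← hm, card_conjMap]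
  have hVnorm : ∀ c ∈ Subgroup.normalizer (V : Set G), ∀ t ∈ V, Rel F t (c * t * c⁻¹) := by
    set NV := Subgroup.normalizer (V : Set G) with hNV
    set R := (P : Subgroup G) ⊓ NV with hRdef
    have hVR : Nat.card T < Nat.card R := hVcard ▸ card_lt (lt_inf_normalizer hS hVlt)
    let K : Subgroup ↥NV := Subgroup.closure {x | ∃ k : ℕ, orderOf x = p ^ k}
    haveI : K.Normal := by
      constructor
      intro n hn c
      induction hn using Subgroup.closure_induction with
      | mem z hz =>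
        refine Subgroup.subset_closure ?_
        obtain ⟨j, hj⟩ := hz
        exact ⟨j, by rw [← hj, ← MulAut.conj_apply]; exact MulEquiv.orderOf_eq _ _⟩
      | one => simp
      | mul a b _ _ iha ihb => simpa [mul_assoc] using K.mul_mem iha ihb
      | inv a _ iha => simpa [mul_assoc] using K.inv_mem iha
    let RS : Sylow p ↥NV := ((hS.to_le inf_le_left).comap_subtype (K := NV)).toSylow
      (P := R.subgroupOf NV) hgood
    have hRK : (RS : Subgroup ↥NV) ≤ K := by
      intro x hx
      refine Subgroup.subset_closure ?_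
      obtain ⟨j, hj⟩ := IsPGroup.iff_orderOf.mp RS.isPGroup' ⟨x, hx⟩
      exact ⟨j, by rwa [Subgroup.orderOf_mk] at hj⟩
    have hfr := Sylow.normalizer_sup_eq_top' (N := K) RS hRK
    -- the two pieces lie in the stabilizer
    have h1 : Subgroup.normalizer ((RS : Subgroup ↥NV) : Set ↥NV) ≤ (relStab F V).subgroupOf NV := by
      intro c hc
      refine Subgroup.mem_subgroupOf.mpr ⟨c.2, fun t ht => ?_⟩
      refine hbig R hVR inf_le_left c ?_ t ⟨hVP ht, Subgroup.le_normalizer ht⟩
      rintro _ ⟨r, hr, rfl⟩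
      replace hr : r ∈ (P : Subgroup G) ⊓ NV := hr
      have hmem : (⟨r, hr.2⟩ : ↥NV) ∈ (RS : Subgroup ↥NV) := by
        show (⟨r, hr.2⟩ : ↥NV) ∈ R.subgroupOf NV
        exact Subgroup.mem_subgroupOf.mpr hr
      have h3 := (Subgroup.mem_normalizer_iff.mp hc _).mp hmem
      change c * ⟨r, hr.2⟩ * c⁻¹ ∈ R.subgroupOf NV at h3
      rw [Subgroup.mem_subgroupOf] at h3
      exact h3.1
    have h2 : K ≤ (relStab F V).subgroupOf NV := by
      rw [Subgroup.closure_le]
      intro x hx
      obtain ⟨j, hj⟩ := hx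
      refine Subgroup.mem_subgroupOf.mpr ⟨x.2, fun t ht => ?_⟩
      have hxp : IsPGroup p (Subgroup.zpowers x) :=
        IsPGroup.of_card (n := j) (by rw [Nat.card_zpowers, hj])
      obtain ⟨S', hS'⟩ := hxp.exists_le_sylow
      obtain ⟨Q, hQ⟩ := (S'.isPGroup'.map NV.subtype).exists_le_sylow
      have hVQ : V ≤ (Q : Subgroup G) := by
        haveI : (V.subgroupOf NV).Normal :=
          (Subgroup.normal_subgroupOf_iff_le_normalizer Subgroup.le_normalizer).mpr le_rfl
        have hpV : IsPGroup p ↥(V.subgroupOf NV) := (hS.to_le hVP).comap_subtype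
        have := hpV.le_sylow_of_normal S'
        intro y hy
        exact hQ ⟨⟨y, Subgroup.le_normalizer hy⟩, this (Subgroup.mem_subgroupOf.mpr hy), rfl⟩
      have hxQ : (x : G) ∈ (Q : Subgroup G) :=
        hQ ⟨x, hS' (Subgroup.mem_zpowers x), rfl⟩
      rcases (le_inf hVP hVQ : V ≤ (P : Subgroup G) ⊓ (Q : Subgroup G)).eq_or_lt with he | hl
      · refine htame Q ⟨he ▸ hgood, ?_⟩ x (he ▸ x.2) ⟨j, by rw [Subgroup.orderOf_coe, hj]⟩ t (he ▸ ht)
        rw [← he]
        intro hd
        have hle : (S' : Subgroup ↥NV).map NV.subtype ≤ (Q : Subgroup G) ⊓ NV :=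
          le_inf hQ (Subgroup.map_subtype_le _)
        have h3 := dvd_trans hd (Subgroup.relIndex_dvd_of_le_left NV hle)
        rw [Subgroup.relIndex, Subgroup.subgroupOf,
          Subgroup.comap_map_eq_self_of_injective NV.subtype_injective] at h3
        exact S'.not_dvd_index h3
      · obtain ⟨c, hc⟩ := MulAction.exists_smul_eq G Q P
        have hcQ : ∀ y ∈ (Q : Subgroup G), c * y * c⁻¹ ∈ (P : Subgroup G) := by
          intro y hy
          rw [← hc, Sylow.coe_subgroup_smul]
          exact Subgroup.smul_mem_pointwise_smul y (MulAut.conj c) _ hy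
        have hW : Nat.card T < Nat.card ((P : Subgroup G) ⊓ (Q : Subgroup G) : Subgroup G) :=
          hVcard ▸ card_lt hl
        have hcW : ∀ s ∈ (P : Subgroup G) ⊓ (Q : Subgroup G), Rel F s (c * s * c⁻¹) :=
          hbig _ hW inf_le_left c (by rintro _ ⟨s, hs, rfl⟩; exact hcQ s hs.2)
        have hxt : (x : G) * t * (x : G)⁻¹ ∈ V := (Subgroup.mem_normalizer_iff.mp x.2 t).mp ht
        have e1 := hcW t ⟨hVP ht, hVQ ht⟩
        have e2 : Rel F (c * t * c⁻¹) ((c * x * c⁻¹) * (c * t * c⁻¹) * (c * x * c⁻¹)⁻¹) :=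
          hNP _ (hcQ t (hVQ ht)) _ (Subgroup.le_normalizer (hcQ x hxQ))
        have e3 := (hcW _ ⟨hVP hxt, hVQ hxt⟩).symm
        refine e1.trans (e2.trans ?_)
        simpa [mul_assoc] using e3
    intro c hc
    have : (⟨c, hc⟩ : ↥NV) ∈ (relStab F V).subgroupOf NV := by
      refine (sup_le h1 h2) ?_
      rw [Sylow.coe_coe, hfr]; trivial
    exact (Subgroup.mem_subgroupOf.mp this).2
  -- reduce `g` to an element normalizing `V`
  set U := T.map (MulAut.conj g).toMonoidHom with hU
  have hUlt : U < (P : Subgroup G) :=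
    lt_of_le_of_ne hgP fun he => (card_lt hlt).ne (by rw [← he, hU, card_conjMap])
  obtain ⟨a, ha, haN⟩ := good_conj hS hgood hm
  obtain ⟨b, hb, hbN⟩ := good_conj (T := U) (g := m * g⁻¹) hS hgood
    (by rw [← conjMap_conjMap, conjMap_inv hU.symm, hm])
  intro t ht
  have e1 : Rel F t (a * t * a⁻¹) :=
    hbig _ (card_lt (lt_inf_normalizer hS hlt)) inf_le_left a (haN.trans inf_le_left) t
      ⟨hlt.le ht, Subgroup.le_normalizer ht⟩
  have hgt : g * t * g⁻¹ ∈ U := ⟨t, ht, rfl⟩
  have e3 : Rel F (g * t * g⁻¹) (b * (g * t * g⁻¹) * b⁻¹) :=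
    hbig _ (lt_of_eq_of_lt (by rw [hU, card_conjMap]) (card_lt (lt_inf_normalizer hS hUlt))) inf_le_left b
      (hbN.trans inf_le_left) _ ⟨hUlt.le hgt, Subgroup.le_normalizer hgt⟩
  have hmid : b * g * a⁻¹ ∈ Subgroup.normalizer (V : Set G) := by
    rw [mem_normalizer_iff_conjMap, ← conjMap_conjMap, conjMap_inv ha, ← conjMap_conjMap, ← hU, hb]
  have e2 := hVnorm _ hmid (a * t * a⁻¹) (ha ▸ ⟨t, ht, rfl⟩)
  refine e1.trans (e2.trans ?_)
  simpa [mul_assoc] using e3.symm

theorem focal_tame (P : Sylow p G) :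
    (P : Subgroup G) ⊓ commutator G =
      ⁅(P : Subgroup G), Subgroup.normalizer ((P : Subgroup G) : Set G)⁆ ⊔
        ⨆ (Q : Sylow p G) (_ : Tame p (P : Subgroup G) (Q : Subgroup G))
          (x : G) (_ : x ∈ Subgroup.normalizer (((P : Subgroup G) ⊓ (Q : Subgroup G) : Subgroup G) : Set G) ∧
            ∃ k : ℕ, orderOf x = p ^ k),
          ⁅(P : Subgroup G) ⊓ (Q : Subgroup G), Subgroup.zpowers x⁆ := by
  refine le_antisymm ?_ ?_
  · rw [inf_comm, Subgroup.commutator_inf_eq_focalSubgroup, Subgroup.focalSubgroup_def,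
      Subgroup.closure_le]
    rintro _ ⟨hmem, y, hy, u, rfl⟩
    set F := ⁅(P : Subgroup G), Subgroup.normalizer ((P : Subgroup G) : Set G)⁆ ⊔
        ⨆ (Q : Sylow p G) (_ : Tame p (P : Subgroup G) (Q : Subgroup G))
          (x : G) (_ : x ∈ Subgroup.normalizer (((P : Subgroup G) ⊓ (Q : Subgroup G) : Subgroup G) : Set G) ∧
            ∃ k : ℕ, orderOf x = p ^ k),
          ⁅(P : Subgroup G) ⊓ (Q : Subgroup G), Subgroup.zpowers x⁆ with hF
    have hu : u * y⁻¹ * u⁻¹ ∈ (P : Subgroup G) := by
      have := (P : Subgroup G).mul_mem ((P : Subgroup G).inv_mem hy) hmem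
      simpa [commutatorElement_def, mul_assoc] using this
    have key := rel_of_fusion P F
      (fun a ha g hg => by
        have := Subgroup.mem_sup_left (T := ⨆ (Q : Sylow p G) (_ : Tame p (P : Subgroup G) (Q : Subgroup G))
          (x : G) (_ : x ∈ Subgroup.normalizer (((P : Subgroup G) ⊓ (Q : Subgroup G) : Subgroup G) : Set G) ∧
            ∃ k : ℕ, orderOf x = p ^ k),
          ⁅(P : Subgroup G) ⊓ (Q : Subgroup G), Subgroup.zpowers x⁆)
          (Subgroup.commutator_mem_commutator ((P : Subgroup G).inv_mem ha) hg)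
        simpa [Rel, hF, commutatorElement_def, mul_assoc] using this)
      (fun Q hQ x hx hxo t ht => by
        have h1 : ⁅t⁻¹, x⁆ ∈ ⨆ (Q : Sylow p G) (_ : Tame p (P : Subgroup G) (Q : Subgroup G))
          (x : G) (_ : x ∈ Subgroup.normalizer (((P : Subgroup G) ⊓ (Q : Subgroup G) : Subgroup G) : Set G) ∧
            ∃ k : ℕ, orderOf x = p ^ k),
          ⁅(P : Subgroup G) ⊓ (Q : Subgroup G), Subgroup.zpowers x⁆ :=
          Subgroup.mem_iSup_of_mem Q (Subgroup.mem_iSup_of_mem hQ (Subgroup.mem_iSup_of_mem x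
            (Subgroup.mem_iSup_of_mem ⟨hx, hxo⟩
              (Subgroup.commutator_mem_commutator (Subgroup.inv_mem _ ht) (Subgroup.mem_zpowers x)))))
        have := Subgroup.mem_sup_right
          (S := ⁅(P : Subgroup G), Subgroup.normalizer ((P : Subgroup G) : Set G)⁆) h1
        simpa [Rel, hF, commutatorElement_def, mul_assoc] using this)
      _ (Subgroup.zpowers y⁻¹) u rfl
      (Subgroup.zpowers_le.mpr ((P : Subgroup G).inv_mem hy))
      (by rw [MonoidHom.map_zpowers, Subgroup.zpowers_le]; exact hu)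
      y⁻¹ (Subgroup.mem_zpowers _)
    simpa [Rel, commutatorElement_def, mul_assoc] using key
  · refine sup_le (le_inf ?_ (Subgroup.commutator_mono le_top le_top)) ?_
    · rw [Subgroup.commutator_le]
      intro a ha g hg
      have h1 := (Subgroup.mem_normalizer_iff.mp hg a⁻¹).mp ((P : Subgroup G).inv_mem ha)
      have := (P : Subgroup G).mul_mem ha h1
      simpa [commutatorElement_def, mul_assoc] using this
    · refine iSup_le fun Q => iSup_le fun _ => iSup_le fun x => iSup_le fun hx => ?_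
      refine le_inf (le_trans (b := (P : Subgroup G) ⊓ (Q : Subgroup G)) ?_ inf_le_left) (Subgroup.commutator_mono le_top le_top)
      rw [Subgroup.commutator_le]
      intro a ha g hg
      have hgn : g ∈ Subgroup.normalizer (((P : Subgroup G) ⊓ (Q : Subgroup G) : Subgroup G) : Set G) :=
        Subgroup.zpowers_le.mpr hx.1 hg
      have h1 := (Subgroup.mem_normalizer_iff.mp hgn a⁻¹).mp (Subgroup.inv_mem _ ha)
      have := Subgroup.mul_mem _ ha h1
      simpa [commutatorElement_def, mul_assoc] using this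

end Cfsg.Agent.H7
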