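import Cfsg.Agent.Solv.Subnormal

/-!
Subnormality criterion with conjugates by conjugates of elements.
-/

set_option autoImplicit false

namespace Cfsg.Agent.H7

open Cfsg.Agent.Solv
open scoped Pointwise

variable {G : Type*} [Group G]

theorem elementwise_snIn [Finite G] (A : Subgroup G) : ∀ (n : ℕ) (X : Subgroup G), Nat.card X = n → A ≤ X →
    (∀ a ∈ A, ∀ g ∈ X, SnIn A (A ⊔ MulAut.conj (g⁻¹ * a * g) • A)) → SnIn A X := by
  intro n
  induction n using Nat.strong_induction_on with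
  | _ n ih =>
  intro X hn hAX hyp
  by_contra hcon
  have hne : A ≠ X := fun h => hcon (h ▸ snIn_of_normalizes Subgroup.le_normalizer)
  have hlt : ∀ V : Subgroup G, V < X → Nat.card V < n := fun V hV => by
    rw [← hn]; exact Set.ncard_lt_ncard (SetLike.coe_ssubset_coe.mpr hV)
  let U : Set (Subgroup G) := {V | A ≤ V ∧ V < X}
  let S : Subgroup G → Set (Subgroup G) := fun V =>
    {B | (∃ g ∈ X, B = MulAut.conj g • A) ∧ B ≤ V ∧ SnIn B V}
  have hsnA : ∀ V ∈ U, SnIn A V := fun V hV =>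
    ih _ (hlt V hV.2) V rfl hV.1 fun a ha g hg => hyp a ha g (hV.2.le hg)
  have hAS : ∀ V ∈ U, A ∈ S V := fun V hV =>
    ⟨⟨1, one_mem X, by rw [map_one, one_smul]⟩, hV.1, hsnA V hV⟩
  obtain ⟨M, hM, hMtop⟩ := zipper X A U ⟨A, le_rfl, lt_of_le_of_ne hAX hne⟩ (fun V hV => hV.2.le) S
    (fun V B => Iff.rfl) (fun V hV W _ B hB hBV => by
      obtain ⟨⟨g, hg, rfl⟩, -, -⟩ := hB
      refine ⟨⟨g, hg, rfl⟩, hBV, ?_⟩
      have hX : MulAut.conj g⁻¹ • X = X := conj_of_mem_normalizer (Subgroup.le_normalizer (inv_mem hg))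
      have hmem : MulAut.conj g⁻¹ • V ∈ U := by
        refine ⟨fun a ha => ?_, lt_of_le_of_ne ?_ ?_⟩
        · rw [mem_conj_smul, inv_inv]
          exact hBV (mem_conj_smul.mpr (by simpa [mul_assoc] using ha))
        · rw [← hX]; exact Subgroup.pointwise_smul_le_pointwise_smul_iff.mpr hV.2.le
        · intro he
          apply hV.2.ne
          rw [← hX] at he
          exact smul_left_cancel _ he
      have h := (hsnA _ hmem).conj g
      rwa [← mul_smul, ← map_mul, mul_inv_cancel, map_one, one_smul] at h)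
    (fun V hV W hW => by
      refine ⟨X ⊓ Subgroup.normalizer ((sSup (S V ∩ S W) : Subgroup G) : Set G), ⟨?_, ?_⟩, le_rfl⟩
      · exact le_inf hAX ((le_sSup (show A ∈ S V ∩ S W from ⟨hAS V hV, hAS W hW⟩)).trans Subgroup.le_normalizer)
      · refine lt_of_le_of_ne inf_le_left fun he => hcon ?_
        have hD : sSup (S V ∩ S W) < X := lt_of_le_of_lt (sSup_le fun B hB => hB.1.2.1) hV.2
        have hAD : A ≤ sSup (S V ∩ S W) := le_sSup ⟨hAS V hV, hAS W hW⟩
        exact (hsnA _ ⟨hAD, hD⟩).trans hAD hD.le (snIn_of_normalizes (he ▸ inf_le_right)))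
  have hstep : ∀ c ∈ X, SnIn A (A ⊔ MulAut.conj c • A) → MulAut.conj c • A ≤ M := by
    intro c hc hyp'
    have hle : A ⊔ MulAut.conj c • A ≤ X := by
      refine sup_le hAX ?_
      rw [← conj_of_mem_normalizer (Subgroup.le_normalizer hc : c ∈ Subgroup.normalizer (X : Set G))]
      exact Subgroup.pointwise_smul_le_pointwise_smul_iff.mpr hAX
    rcases lt_or_eq_of_le hle with h | h
    · exact le_sup_right.trans (hMtop _ ⟨le_sup_left, h⟩)
    · exact absurd (h ▸ hyp') hcon
  have hself : X ⊓ Subgroup.normalizer (M : Set G) ≤ M := by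
    refine hMtop _ ⟨le_inf hAX (hM.1.trans Subgroup.le_normalizer), lt_of_le_of_ne inf_le_left
      fun he => hcon ?_⟩
    exact (hsnA M hM).trans hM.1 hM.2.le (snIn_of_normalizes (he ▸ inf_le_right))
  have hel : ∀ a ∈ A, ∀ g ∈ X, g⁻¹ * a * g ∈ M := by
    intro a ha g hg
    set c := g⁻¹ * a * g with hc
    have hcX : c ∈ X := mul_mem (mul_mem (inv_mem hg) (hAX ha)) hg
    have hcA := hstep c hcX (hyp a ha g hg)
    have hcM : MulAut.conj c⁻¹ • M ≤ M := by
      refine hMtop _ ⟨fun z hz => ?_, lt_of_le_of_ne ?_ ?_⟩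
      · rw [mem_conj_smul, inv_inv]
        exact hcA (mem_conj_smul.mpr (by simpa [mul_assoc] using hz))
      · rw [← conj_of_mem_normalizer (Subgroup.le_normalizer (inv_mem hcX) :
          c⁻¹ ∈ Subgroup.normalizer (X : Set G))]
        exact Subgroup.pointwise_smul_le_pointwise_smul_iff.mpr hM.2.le
      · intro he
        apply hM.2.ne
        rw [← conj_of_mem_normalizer (Subgroup.le_normalizer (inv_mem hcX) :
          c⁻¹ ∈ Subgroup.normalizer (X : Set G))] at he
        exact smul_left_cancel _ he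
    have heq : MulAut.conj c⁻¹ • M = M := Subgroup.eq_of_le_of_card_ge hcM (by
      rw [conj_smul_eq_map]
      exact le_of_eq (Nat.card_congr (M.equivMapOfInjective _ (MulAut.conj c⁻¹).injective).toEquiv))
    exact M.inv_mem_iff.mp (hself ⟨X.inv_mem hcX, mem_normalizer_of_conj heq⟩)
  have hall : ∀ g ∈ X, MulAut.conj g • A ≤ M := by
    intro g hg z hz
    rw [mem_conj_smul] at hz
    have := hel _ hz g⁻¹ (inv_mem hg)
    simpa [mul_assoc] using this
  obtain ⟨K, hK⟩ : ∃ K, K = sSup {B : Subgroup G | ∃ g ∈ X, B = MulAut.conj g • A} := ⟨_, rfl⟩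
  have hAK : A ≤ K := hK ▸ le_sSup ⟨1, one_mem X, by rw [map_one, one_smul]⟩
  have hKM : K ≤ M := hK ▸ sSup_le fun B ⟨g, hg, hB⟩ => hB ▸ hall g hg
  apply hcon
  refine (hsnA K ⟨hAK, lt_of_le_of_lt hKM hM.2⟩).trans hAK (hKM.trans hM.2.le) (snIn_of_normalizes fun x hx => ?_)
  have hle' : ∀ y ∈ X, MulAut.conj y • K ≤ K := by
    intro y hy
    rw [conj_smul_eq_map, hK, Subgroup.map_le_iff_le_comap]
    refine sSup_le ?_
    rintro B ⟨g, hg, rfl⟩
    rw [← Subgroup.map_le_iff_le_comap, ← conj_smul_eq_map, ← mul_smul, ← map_mul]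
    exact le_sSup ⟨y * g, mul_mem hy hg, rfl⟩
  apply mem_normalizer_of_conj
  refine le_antisymm (hle' x hx) fun z hz => ?_
  rw [mem_conj_smul]
  apply hle' x⁻¹ (inv_mem hx)
  rw [mem_conj_smul]
  simpa [mul_assoc] using hz

end Cfsg.Agent.H7
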