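import Mathlib

namespace Cfsg.Agent.H7

variable {G : Type*} [Group G]

theorem relIndex_sup_of_le_normalizer {M P S : Subgroup G} (hPM : P ≤ M)
    (hn : P ≤ Subgroup.normalizer (S : Set G)) : M.relIndex (S ⊔ P) = M.relIndex S := by
  symm
  have hle : S ≤ S ⊔ P := le_sup_left
  refine Nat.card_eq_of_bijective
    (Subgroup.quotientSubgroupOfEmbeddingOfLE M hle)
    ⟨(Subgroup.quotientSubgroupOfEmbeddingOfLE M hle).injective, ?_⟩
  intro x
  obtain ⟨⟨y, hy⟩, rfl⟩ := QuotientGroup.mk_surjective x
  have hy' := hy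
  rw [← SetLike.mem_coe, Subgroup.coe_mul_of_right_le_normalizer_left _ _ hn] at hy'
  obtain ⟨s, hs, q, hq, rfl⟩ := hy'
  refine ⟨QuotientGroup.mk ⟨s, hs⟩, ?_⟩
  rw [Subgroup.quotientSubgroupOfEmbeddingOfLE_apply_mk]
  refine QuotientGroup.eq.mpr ?_
  rw [Subgroup.mem_subgroupOf]
  show ((Subgroup.inclusion hle ⟨s, hs⟩)⁻¹ * ⟨s * q, hy⟩ : (S ⊔ P : Subgroup G)).val ∈ M
  simpa using hPM hq

variable [Finite G] {p : ℕ} [Fact p.Prime]

theorem card_sylow_quotient (K : Subgroup G) [K.Normal] (P : Sylow p G) :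
    Nat.card (Sylow p (G ⧸ K)) =
      (Subgroup.normalizer (((P : Subgroup G) ⊔ K : Subgroup G) : Set G)).index := by
  rw [Sylow.card_eq_index_normalizer (P.mapSurjective (QuotientGroup.mk'_surjective K)),
    ← Subgroup.index_comap_of_surjective (f := QuotientGroup.mk' K) _ (QuotientGroup.mk'_surjective K),
    ]
  congr 1
  rw [← Sylow.coe_coe, Subgroup.comap_normalizer_eq_of_surjective _ (QuotientGroup.mk'_surjective K)]
  congr 2
  rw [Sylow.coe_mapSurjective, Subgroup.comap_map_eq, QuotientGroup.ker_mk']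

theorem card_sylow_subgroup (P : Sylow p G) {L : Subgroup G} (hPL : (P : Subgroup G) ≤ L) :
    Nat.card (Sylow p L) = (Subgroup.normalizer ((P : Subgroup G) : Set G)).relIndex L := by
  rw [Sylow.card_eq_index_normalizer (P.subtype hPL), ← Sylow.coe_coe, Sylow.coe_subtype,
    ← Subgroup.subgroupOf_normalizer_eq hPL]
  rfl

theorem card_sylow_normal (K : Subgroup G) [K.Normal] (P : Sylow p G) :
    Nat.card (Sylow p K) =
      (Subgroup.normalizer (((P : Subgroup G) ⊓ K : Subgroup G) : Set G)).relIndex K := by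
  have hp : IsPGroup p (((P : Subgroup G) ⊓ K).subgroupOf K) :=
    (P.isPGroup'.to_le inf_le_left).comap_subtype
  have hi : ¬ p ∣ (((P : Subgroup G) ⊓ K).subgroupOf K).index := by
    show ¬ p ∣ ((P : Subgroup G) ⊓ K).relIndex K
    rw [Subgroup.inf_relIndex_right]
    intro h
    have hPn : (P : Subgroup G) ≤ Subgroup.normalizer (K : Set G) := by
      rw [Subgroup.normalizer_eq_top]; exact le_top
    rw [← relIndex_sup_of_le_normalizer le_rfl hPn] at h
    exact P.not_dvd_index (h.trans (Subgroup.relIndex_dvd_index_of_le le_sup_right))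
  rw [Sylow.card_eq_index_normalizer (hp.toSylow hi), ← Sylow.coe_coe, IsPGroup.toSylow_coe,
    ← Subgroup.subgroupOf_normalizer_eq inf_le_right]
  rfl

theorem sylow_sup_normalizer (K : Subgroup G) [K.Normal] (P : Sylow p G) :
    Subgroup.normalizer (((P : Subgroup G) ⊔ K : Subgroup G) : Set G) =
      K ⊔ Subgroup.normalizer ((P : Subgroup G) : Set G) := by
  set L : Subgroup G := (P : Subgroup G) ⊔ K with hL
  refine le_antisymm ?_ (sup_le (le_sup_right.trans Subgroup.le_normalizer) ?_)
  · set X := Subgroup.normalizer (L : Set G) with hX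
    have hLX : L ≤ X := Subgroup.le_normalizer
    haveI : (L.subgroupOf X).Normal := (Subgroup.normal_subgroupOf_iff_le_normalizer hLX).mpr le_rfl
    have hPX : (P : Subgroup G) ≤ X := le_sup_left.trans hLX
    have hf := Sylow.normalizer_sup_eq_top' (N := L.subgroupOf X) (P.subtype hPX)
      (by
        intro x hx
        rw [Sylow.coe_subtype, Subgroup.mem_subgroupOf] at hx
        exact Subgroup.mem_subgroupOf.mpr (Subgroup.mem_sup_left hx))
    have := congrArg (Subgroup.map X.subtype) hf
    rw [Subgroup.map_sup, ← MonoidHom.range_eq_map, Subgroup.range_subtype, ← Sylow.coe_coe, Sylow.coe_subtype,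
      ← Subgroup.subgroupOf_normalizer_eq hPX, Subgroup.subgroupOf_map_subtype,
      Subgroup.subgroupOf_map_subtype] at this
    rw [← this]
    exact sup_le (inf_le_left.trans le_sup_right)
      (inf_le_left.trans (sup_le (Subgroup.le_normalizer.trans le_sup_right) le_sup_left))
  · intro g hg
    rw [Subgroup.mem_normalizer_iff] at hg
    have key : ∀ g' : G, (∀ h, h ∈ (P : Subgroup G) → g' * h * g'⁻¹ ∈ (P : Subgroup G)) →
        ∀ h ∈ L, g' * h * g'⁻¹ ∈ L := by
      intro g' hg' h hh
      have hle : L ≤ L.comap (MulAut.conj g').toMonoidHom := by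
        refine sup_le ?_ ?_
        · intro x hx
          exact Subgroup.mem_sup_left (hg' x hx)
        · intro x hx
          exact Subgroup.mem_sup_right (Subgroup.Normal.conj_mem ‹K.Normal› x hx g')
      exact hle hh
    rw [Subgroup.mem_normalizer_iff]
    intro h
    refine ⟨key g (fun x hx => (hg x).mp hx) h, fun hh => ?_⟩
    have := key g⁻¹ (fun x hx => (hg _).mpr (by simpa [mul_assoc] using hx)) _ hh
    simpa [mul_assoc] using this

end Cfsg.Agent.H7
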