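import Cfsg.Prelude.Def_Transfer
import Cfsg.Agent.H7.CyclicModule
import Cfsg.Agent.Coprime.Basic
import Cfsg.Agent.Char.Integral

/-!
Finite groups whose automorphism group has three orbits.
-/

set_option autoImplicit false

namespace Cfsg.Agent.ThreeOrbits

open Subgroup
open scoped IsMulCommutative commutatorElement

universe u

variable {G : Type u} [Group G] [Finite G]

theorem orderOf_aut (φ : MulAut G) (g : G) : orderOf (φ g) = orderOf g :=
  orderOf_injective φ.toMonoidHom φ.injective g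

/-- The order of the elements of an orbit. -/
noncomputable def orbitOrder : MulAction.orbitRel.Quotient (MulAut G) G → ℕ :=
  Quotient.lift orderOf fun a b h => by
    obtain ⟨φ, rfl⟩ := h
    exact orderOf_aut φ b

theorem orbit_facts {p q : ℕ} [Fact p.Prime] [Fact q.Prime] (hpq : p ≠ q)
    (hp : p ∣ Nat.card G) (hq : q ∣ Nat.card G)
    (h3 : Nat.card (MulAction.orbitRel.Quotient (MulAut G) G) = 3) :
    (∀ g : G, g = 1 ∨ orderOf g = p ∨ orderOf g = q) ∧
      ∀ g h : G, orderOf g = orderOf h → ∃ φ : MulAut G, φ g = h := by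
  classical
  haveI : Fintype (MulAction.orbitRel.Quotient (MulAut G) G) := Fintype.ofFinite _
  obtain ⟨x, hx⟩ := exists_prime_orderOf_dvd_card' p hp
  obtain ⟨y, hy⟩ := exists_prime_orderOf_dvd_card' q hq
  have hp1 := (Fact.out : p.Prime).ne_one
  have hq1 := (Fact.out : q.Prime).ne_one
  set S : Finset ℕ := Finset.univ.image (orbitOrder (G := G))
  have hsub : ({1, p, q} : Finset ℕ) ⊆ S := by
    intro k hk
    simp only [Finset.mem_insert, Finset.mem_singleton] at hk
    simp only [S, Finset.mem_image, Finset.mem_univ, true_and]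
    rcases hk with rfl | rfl | rfl
    · exact ⟨Quotient.mk'' 1, orderOf_one⟩
    · exact ⟨Quotient.mk'' x, hx⟩
    · exact ⟨Quotient.mk'' y, hy⟩
  have hc : ({1, p, q} : Finset ℕ).card = 3 := by
    rw [Finset.card_insert_of_notMem (by simp [hp1.symm, hq1.symm]),
      Finset.card_insert_of_notMem (by simpa using hpq), Finset.card_singleton]
  have hle : S.card ≤ 3 := by
    refine Finset.card_image_le.trans ?_
    rw [Finset.card_univ, ← Nat.card_eq_fintype_card, h3]
  have hS : ({1, p, q} : Finset ℕ) = S :=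
    Finset.eq_of_subset_of_card_le hsub (by rw [hc]; exact hle)
  have hinj : Function.Injective (orbitOrder (G := G)) := by
    intro a b e
    refine (Finset.card_image_iff (s := Finset.univ) (f := orbitOrder (G := G))).mp ?_
      (Finset.mem_coe.mpr (Finset.mem_univ a)) (Finset.mem_coe.mpr (Finset.mem_univ b)) e
    change S.card = _
    rw [← hS, hc, Finset.card_univ, ← Nat.card_eq_fintype_card, h3]
  refine ⟨fun g => ?_, fun g h e => ?_⟩
  · have : orderOf g ∈ S :=
      Finset.mem_image.mpr ⟨Quotient.mk'' g, Finset.mem_univ _, rfl⟩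
    rw [← hS] at this
    simpa [Finset.mem_insert, orderOf_eq_one_iff] using this
  · have h1 := hinj (a₁ := Quotient.mk'' h) (a₂ := Quotient.mk'' g) e.symm
    obtain ⟨φ, hφ⟩ := Quotient.exact h1
    exact ⟨φ, hφ⟩

theorem card_orbits {p q : ℕ} [Fact p.Prime] [Fact q.Prime] (hpq : p ≠ q)
    (hp : p ∣ Nat.card G) (hq : q ∣ Nat.card G)
    (hord : ∀ g : G, g = 1 ∨ orderOf g = p ∨ orderOf g = q)
    (htr : ∀ g h : G, orderOf g = orderOf h → ∃ φ : MulAut G, φ g = h) :
    Nat.card (MulAction.orbitRel.Quotient (MulAut G) G) = 3 := by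
  classical
  haveI : Fintype (MulAction.orbitRel.Quotient (MulAut G) G) := Fintype.ofFinite _
  obtain ⟨x, hx⟩ := exists_prime_orderOf_dvd_card' p hp
  obtain ⟨y, hy⟩ := exists_prime_orderOf_dvd_card' q hq
  have hp1 := (Fact.out : p.Prime).ne_one
  have hq1 := (Fact.out : q.Prime).ne_one
  have hinj : Function.Injective (orbitOrder (G := G)) := by
    intro a b
    refine Quotient.inductionOn₂' a b fun g h e => ?_
    obtain ⟨φ, hφ⟩ := htr h g e.symm
    exact Quotient.sound' ⟨φ, hφ⟩
  rw [Nat.card_eq_fintype_card, ← Finset.card_univ, ← Finset.card_image_of_injective _ hinj]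
  have : (Finset.univ.image (orbitOrder (G := G))) = {1, p, q} := by
    ext k
    simp only [Finset.mem_image, Finset.mem_univ, true_and, Finset.mem_insert,
      Finset.mem_singleton]
    constructor
    · rintro ⟨a, rfl⟩
      refine Quotient.inductionOn' a fun g => ?_
      change orderOf g = 1 ∨ orderOf g = p ∨ orderOf g = q
      rw [orderOf_eq_one_iff]
      exact hord g
    · rintro (rfl | rfl | rfl)
      · exact ⟨Quotient.mk'' 1, orderOf_one⟩
      · exact ⟨Quotient.mk'' x, hx⟩
      · exact ⟨Quotient.mk'' y, hy⟩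
  rw [this, Finset.card_insert_of_notMem (by simp [hp1.symm, hq1.symm]),
    Finset.card_insert_of_notMem (by simpa using hpq), Finset.card_singleton]

section Module

variable (P : Subgroup G) [P.Normal] [IsMulCommutative P]

/-- Conjugation as an additive endomorphism. -/
def conjEnd : G →* AddMonoid.End (Additive P) where
  toFun g :=
    { toFun := fun v => Additive.ofMul (MulAut.conjNormal g v.toMul)
      map_zero' := by simp
      map_add' := fun v w => by simp }
  map_one' := AddMonoidHom.ext fun v => by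
    change Additive.ofMul (MulAut.conjNormal (1 : G) v.toMul) = v
    rw [map_one]
    rfl
  map_mul' g h := AddMonoidHom.ext fun v => by
    change Additive.ofMul (MulAut.conjNormal (g * h) v.toMul) =
      Additive.ofMul (MulAut.conjNormal g (MulAut.conjNormal h v.toMul))
    rw [map_mul]
    rfl

omit [Finite G] in
theorem coe_conjEnd (g : G) (v : Additive P) :
    ((conjEnd P g v).toMul : G) = g * (v.toMul : G) * g⁻¹ :=
  MulAut.conjNormal_apply g v.toMul

variable {P} {p q : ℕ} [Fact p.Prime] [Fact q.Prime] {x : G}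

omit [Finite G] in
theorem end_pow_q (hx : orderOf x = q) : conjEnd P x ^ q = 1 := by
  rw [← map_pow, ← hx, pow_orderOf_eq_one, map_one]

omit [Finite G] [Fact p.Prime] [Fact q.Prime] in
theorem end_fpf (hF : ∀ y ∈ P, x * y * x⁻¹ = y → y = 1) :
    ∀ v, conjEnd P x v = v → v = 0 := by
  intro v hv
  have h := hF _ v.toMul.2 (by rw [← coe_conjEnd, hv])
  have : v.toMul = 1 := Subtype.ext h
  exact Additive.toMul.injective this

omit [Finite G] in
theorem end_torsion (hP : ∀ y ∈ P, y ^ p = 1) : ∀ v : Additive P, p • v = 0 := by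
  intro v
  apply Additive.toMul.injective
  rw [toMul_nsmul, toMul_zero]
  exact Subtype.ext (by simpa using hP _ v.toMul.2)

/-- An automorphism of `G` built from a semilinear automorphism of `P`. -/
theorem exists_aut (hc : P.IsComplement' (zpowers x)) (hx : orderOf x = q) {i : ℕ} (hi : ¬ q ∣ i)
    (τ : Additive P ≃+ Additive P)
    (hτ : ∀ u, τ (conjEnd P x u) = (conjEnd P x ^ i) (τ u)) :
    ∃ φ : MulAut G, φ x = x ^ i ∧ ∀ v : P, φ (v : G) = ((τ (Additive.ofMul v)).toMul : G) := by
  let fn : P →* G :=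
    { toFun := fun v => ((τ (Additive.ofMul v)).toMul : G)
      map_one' := by simp
      map_mul' := fun v w => by simp }
  let fg : zpowers x →* G :=
    { toFun := fun z => (z : G) ^ i
      map_one' := by simp
      map_mul' := fun a b => by
        rw [Subgroup.coe_mul]
        exact Commute.mul_pow (congrArg Subtype.val (mul_comm' a b)) i }
  have hfn : ∀ v : P, fn v = ((τ (Additive.ofMul v)).toMul : G) := fun v => rfl
  have hpow : ∀ (k : ℕ) (u : Additive P),
      τ ((conjEnd P x ^ k) u) = (conjEnd P x ^ (i * k)) (τ u) := by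
    intro k
    induction k with
    | zero => intro u; simp
    | succ k ih =>
      intro u
      rw [pow_succ']
      change τ (conjEnd P x ((conjEnd P x ^ k) u)) = _
      rw [hτ, ih, mul_add_one, add_comm (i * k), pow_add]
      rfl
  let F : P ⋊[(P.normalizerMonoidHom).comp (inclusion (P.normalizer_eq_top ▸ le_top))] zpowers x →* G :=
    SemidirectProduct.lift fn fg (fun z => by
      obtain ⟨k, hk⟩ := mem_powers_iff_mem_zpowers.mpr z.2
      apply MonoidHom.ext
      intro v
      change fn _ = (z : G) ^ i * fn v * ((z : G) ^ i)⁻¹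
      have e : Additive.ofMul ((P.normalizerMonoidHom.comp
          (inclusion (P.normalizer_eq_top ▸ le_top))) z v) =
          (conjEnd P x ^ k) (Additive.ofMul v) := by
        rw [← map_pow]
        apply Additive.toMul.injective
        apply Subtype.ext
        rw [coe_conjEnd]
        simp only at hk
        rw [hk]
        rfl
      rw [hfn]
      erw [e]
      rw [hpow, ← map_pow, coe_conjEnd, ← hfn]
      simp only at hk
      rw [← hk, ← pow_mul, mul_comm k i])
  let e := SemidirectProduct.mulEquivSubgroup hc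
  let f : G →* G := F.comp e.symm.toMonoidHom
  have hfP : ∀ v : P, f (v : G) = fn v := by
    intro v
    have : e (SemidirectProduct.inl v) = (v : G) := by simp [e, SemidirectProduct.mulEquivSubgroup,
      SemidirectProduct.monoidHomSubgroup]
    change F (e.symm (v : G)) = _
    rw [← this, e.symm_apply_apply]
    simp [F]
  have hfx : f x = x ^ i := by
    have : e (SemidirectProduct.inr ⟨x, mem_zpowers x⟩) = x := by
      simp [e, SemidirectProduct.mulEquivSubgroup, SemidirectProduct.monoidHomSubgroup]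
    change F (e.symm x) = _
    have h2 := congrArg (fun w => F (e.symm w)) this
    simp only [e.symm_apply_apply] at h2
    rw [← h2]
    simp [F, fg]
  have hsurj : Function.Surjective f := by
    rw [← MonoidHom.range_eq_top, eq_top_iff, ← hc.sup_eq_top, sup_le_iff]
    constructor
    · intro y hy
      obtain ⟨v, hv⟩ := τ.surjective (Additive.ofMul ⟨y, hy⟩)
      refine ⟨(v.toMul : P), ?_⟩
      rw [hfP, hfn, ofMul_toMul, hv]
      rfl
    · rw [zpowers_le]
      have hxi : x ^ i ∈ f.range := ⟨x, hfx⟩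
      have hcop : Nat.Coprime i (orderOf x) := by
        rw [hx]
        exact ((Nat.Prime.coprime_iff_not_dvd Fact.out).mpr hi).symm
      obtain ⟨m, hm⟩ := exists_pow_eq_self_of_coprime hcop
      rw [← hm]
      exact pow_mem hxi m
  refine ⟨MulEquiv.ofBijective f ⟨Finite.injective_iff_surjective.mpr hsurj, hsurj⟩, hfx, ?_⟩
  exact hfP

/-- The restriction of a compatible automorphism. -/
theorem semilinear_of_aut (hc : P.IsComplement' (zpowers x)) (φ : MulAut G)
    (hφ : ∀ v, v ∈ P → φ v ∈ P) :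
    ∃ τ : Additive P ≃+ Additive P, (∀ v : P, ((τ (Additive.ofMul v)).toMul : G) = φ v) ∧
      (∀ i : ℕ, φ x = x ^ i → ∀ u, τ (conjEnd P x u) = (conjEnd P x ^ i) (τ u)) ∧
      ∃ i : ℕ, ∀ u, τ (conjEnd P x u) = (conjEnd P x ^ i) (τ u) := by
  let r : P →* P := (φ.toMonoidHom.comp P.subtype).codRestrict P fun v => hφ v v.2
  have hr : Function.Bijective r := Finite.injective_iff_bijective.mp fun a b e =>
    Subtype.ext (φ.injective (congrArg Subtype.val e :))
  let τ : Additive P ≃+ Additive P := MulEquiv.toAdditive (MulEquiv.ofBijective r hr)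
  have hτ : ∀ u, ((τ u).toMul : G) = φ (u.toMul : G) := fun u => rfl
  have key : ∀ (y : G) (i : ℕ), y ∈ P → φ x = y * x ^ i →
      ∀ u, τ (conjEnd P x u) = (conjEnd P x ^ i) (τ u) := by
    intro y i hy e u
    apply Additive.toMul.injective
    apply Subtype.ext
    rw [hτ, coe_conjEnd, map_mul, map_mul, map_inv, e, ← map_pow, coe_conjEnd, hτ]
    have hw : x ^ i * φ (u.toMul : G) * (x ^ i)⁻¹ ∈ P :=
      (inferInstance : P.Normal).conj_mem _ (hφ _ u.toMul.2) _
    calc y * x ^ i * φ (u.toMul : G) * (y * x ^ i)⁻¹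
        = y * (x ^ i * φ (u.toMul : G) * (x ^ i)⁻¹) * y⁻¹ := by group
      _ = _ := by
        rw [show y * (x ^ i * φ (u.toMul : G) * (x ^ i)⁻¹) =
          (x ^ i * φ (u.toMul : G) * (x ^ i)⁻¹) * y from
          congrArg Subtype.val (mul_comm' (⟨y, hy⟩ : P) ⟨_, hw⟩), mul_inv_cancel_right]
  refine ⟨τ, fun v => hτ _, fun i e => key 1 i (one_mem _) (by rw [one_mul, e]), ?_⟩
  have hmem : φ x ∈ P ⊔ zpowers x := hc.sup_eq_top ▸ mem_top _
  obtain ⟨y, hy, z, hz, e⟩ := mem_sup_of_normal_left.mp hmem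
  obtain ⟨i, hi⟩ := mem_powers_iff_mem_zpowers.mpr hz
  exact ⟨i, key y i hy (by rw [← e, ← hi])⟩

end Module

theorem primitive_of_cover {p q : ℕ} [Fact p.Prime] [hq : Fact q.Prime] (hpq : p ≠ q)
    (h : ∀ i : ℕ, ¬ q ∣ i → ∃ j : ℕ, (i : ZMod q) = (p : ZMod q) ^ j) :
    orderOf (p : ZMod q) = q - 1 := by
  have hp0 : (p : ZMod q) ≠ 0 := by
    rw [Ne, ZMod.natCast_eq_zero_iff]
    exact fun hd => hpq ((Nat.prime_dvd_prime_iff_eq hq.out Fact.out).mp hd).symm
  have htop : zpowers (Units.mk0 _ hp0) = ⊤ := by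
    rw [eq_top_iff]
    rintro w -
    have hnd : ¬ q ∣ ((w : ZMod q)).val := by
      rw [← ZMod.natCast_eq_zero_iff, ZMod.natCast_zmod_val]
      exact w.ne_zero
    obtain ⟨j, hj⟩ := h _ hnd
    rw [ZMod.natCast_zmod_val] at hj
    refine ⟨(j : ℤ), Units.ext ?_⟩
    simp [hj]
  rw [show (p : ZMod q) = ((Units.mk0 _ hp0 : (ZMod q)ˣ) : ZMod q) from rfl, orderOf_units,
    ← Nat.card_zpowers, htop, card_top, Nat.card_eq_fintype_card, ZMod.card_units]

theorem cover_of_primitive {p q : ℕ} [Fact p.Prime] [hq : Fact q.Prime] (hpq : p ≠ q)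
    (h : orderOf (p : ZMod q) = q - 1) {i : ℕ} (hi : ¬ q ∣ i) :
    ∃ j : ℕ, (i : ZMod q) = (p : ZMod q) ^ j := by
  have hp0 : (p : ZMod q) ≠ 0 := by
    rw [Ne, ZMod.natCast_eq_zero_iff]
    exact fun hd => hpq ((Nat.prime_dvd_prime_iff_eq hq.out Fact.out).mp hd).symm
  have hi0 : (i : ZMod q) ≠ 0 := by rwa [Ne, ZMod.natCast_eq_zero_iff]
  set u := Units.mk0 _ hp0
  have htop : zpowers u = ⊤ := by
    apply eq_top_of_card_eq
    rw [Nat.card_zpowers, ← orderOf_units, Nat.card_eq_fintype_card, ZMod.card_units]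
    exact h
  obtain ⟨j, hj⟩ := mem_powers_iff_mem_zpowers.mpr (htop ▸ mem_top (Units.mk0 _ hi0))
  refine ⟨j, ?_⟩
  simpa [u] using (congrArg Units.val hj).symm

theorem nontrivial_additive (P : Subgroup G) (h : P ≠ ⊥) : Nontrivial (Additive P) :=
  haveI : Nontrivial P := (Subgroup.nontrivial_iff_ne_bot P).mpr h
  inferInstance

theorem forward_main {p q a b : ℕ} [hp : Fact p.Prime] [hq : Fact q.Prime] (hpq : p ≠ q)
    (ha : 1 ≤ a) (hb : 1 ≤ b) (hcard : Nat.card G = p ^ a * q ^ b)
    (hord : ∀ g : G, g = 1 ∨ orderOf g = p ∨ orderOf g = q)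
    (htr : ∀ g h : G, orderOf g = orderOf h → ∃ φ : MulAut G, φ g = h)
    (x₀ : G) (hx₀ : x₀ ∈ commutator G) (hx₀p : orderOf x₀ = p) :
    b = 1 ∧ (∀ S : Sylow p G, (S : Subgroup G).Normal ∧
      Cfsg.IsElementaryAbelian p (S : Subgroup G)) ∧
      orderOf (p : ZMod q) = q - 1 ∧
      ∀ x y : G, orderOf x = q → orderOf y = p → x * y * x⁻¹ ≠ y := by
  have hp1 := hp.out.ne_one
  have hq1 := hq.out.ne_one
  have hcop : ∀ x y : G, orderOf x = q → orderOf y = p → x * y * x⁻¹ ≠ y := by
    intro x y hx hy e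
    have hc : Commute x y := mul_inv_eq_iff_eq_mul.mp e
    have hxy := hc.orderOf_mul_eq_mul_orderOf_of_coprime
      (by rw [hx, hy]; exact (Nat.coprime_primes hq.out hp.out).mpr (Ne.symm hpq))
    rw [hx, hy] at hxy
    rcases hord (x * y) with h | h | h
    · rw [h, orderOf_one] at hxy
      exact hq1 (Nat.eq_one_of_mul_eq_one_right hxy.symm)
    · rw [h] at hxy
      exact hq1 (mul_left_eq_self₀.mp hxy.symm |>.resolve_right hp.out.ne_zero)
    · rw [h] at hxy
      exact hp1 (mul_right_eq_self₀.mp hxy.symm |>.resolve_right hq.out.ne_zero)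
  have hchar : ∀ K : Subgroup G, K.Characteristic → ∀ g ∈ K, ∀ h : G,
      orderOf g = orderOf h → h ∈ K := by
    intro K hK g hg h e
    obtain ⟨φ, rfl⟩ := htr g h e
    exact Subgroup.mem_comap.mp ((characteristic_iff_comap_eq.mp hK φ).ge hg)
  set P := commutator G with hP
  have hPchar : P.Characteristic := inferInstance
  have hallp : ∀ g : G, orderOf g = p → g ∈ P := fun g hg =>
    hchar P hPchar x₀ hx₀ g (hx₀p.trans hg.symm)
  haveI : Nontrivial G := ⟨⟨x₀, 1, fun h => hp1 (by rw [← hx₀p, h, orderOf_one])⟩⟩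
  have hPtop : P ≠ ⊤ := by
    haveI := Cfsg.Agent.Char.isSolvable_of_card_eq_pow_mul_pow G hp.out hq.out hcard
    exact (Group.IsSolvable.commutator_lt_top_of_nontrivial G).ne
  have hPq : ∀ g ∈ P, orderOf g ≠ q := by
    intro g hg e
    apply hPtop
    rw [eq_top_iff]
    intro h _
    rcases hord h with rfl | h' | h'
    · exact one_mem _
    · exact hallp h h'
    · exact hchar P hPchar g hg h (e.trans h'.symm)
  have hPpow : ∀ g ∈ P, g ^ p = 1 := by
    intro g hg
    rcases hord g with rfl | h | h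
    · exact one_pow _
    · rw [← h, pow_orderOf_eq_one]
    · exact absurd h (hPq g hg)
  have hPp : IsPGroup p P := fun g => ⟨1, Subtype.ext (by simpa using hPpow g g.2)⟩
  have hS : ∀ S : Sylow p G, (S : Subgroup G) = P := by
    intro S
    refine (S.3 hPp fun g hg => ?_).symm
    rcases hord g with rfl | h | h
    · exact one_mem _
    · exact hallp g h
    · exfalso
      obtain ⟨k, hk⟩ := IsPGroup.iff_orderOf.mp S.2 ⟨g, hg⟩
      rw [← Subgroup.orderOf_coe] at hk
      change orderOf g = p ^ k at hk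
      rw [h] at hk
      exact hpq ((Nat.prime_dvd_prime_iff_eq hq.out hp.out).mp
        (hq.out.dvd_of_dvd_pow hk.dvd)).symm
  haveI hPcomm : IsMulCommutative P := by
    haveI : Nontrivial P := ⟨⟨⟨x₀, hx₀⟩, 1, fun h => hp1 (by
      rw [← hx₀p, show x₀ = 1 from congrArg Subtype.val h, orderOf_one])⟩⟩
    haveI := hPp.center_nontrivial
    obtain ⟨z, hz⟩ := exists_ne (1 : center P)
    have hzc : ((center P).map P.subtype).Characteristic := inferInstance
    have hzmem : ((z : P) : G) ∈ (center P).map P.subtype := ⟨z, z.2, rfl⟩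
    have hzp : orderOf ((z : P) : G) = p := by
      rcases hord ((z : P) : G) with h | h | h
      · exact absurd (Subtype.ext (Subtype.ext h)) hz
      · exact h
      · exact absurd h (hPq _ (z : P).2)
    refine ⟨⟨fun u v => ?_⟩⟩
    rcases hord (u : G) with h | h | h
    · have : u = 1 := Subtype.ext h
      simp [this]
    · obtain ⟨u', hu', e⟩ := hchar _ hzc _ hzmem (u : G) (hzp.trans h.symm)
      have : u' = u := Subtype.ext e
      subst this
      exact (mem_center_iff.mp hu' v).symm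
    · exact absurd h (hPq _ u.2)
  obtain ⟨Sp⟩ : Nonempty (Sylow p G) := inferInstance
  have hPcard : Nat.card P = p ^ a := by
    rw [← hS Sp, Sp.card_eq_multiplicity, hcard]
    congr 1
    rw [Nat.factorization_mul (pow_ne_zero _ hp.out.ne_zero) (pow_ne_zero _ hq.out.ne_zero),
      Nat.Prime.factorization_pow hp.out, Nat.Prime.factorization_pow hq.out]
    simp [Finsupp.single_apply, hpq.symm]
  obtain ⟨Q⟩ : Nonempty (Sylow q G) := inferInstance
  have hQcard : Nat.card (Q : Subgroup G) = q ^ b := by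
    rw [Q.card_eq_multiplicity, hcard]
    congr 1
    rw [Nat.factorization_mul (pow_ne_zero _ hp.out.ne_zero) (pow_ne_zero _ hq.out.ne_zero),
      Nat.Prime.factorization_pow hp.out, Nat.Prime.factorization_pow hq.out]
    simp [Finsupp.single_apply, hpq]
  have hQq : ∀ g ∈ (Q : Subgroup G), g ≠ 1 → orderOf g = q := by
    intro g hg hg1
    rcases hord g with h | h | h
    · exact absurd h hg1
    · exfalso
      obtain ⟨k, hk⟩ := IsPGroup.iff_orderOf.mp Q.2 ⟨g, hg⟩
      rw [← Subgroup.orderOf_coe] at hk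
      change orderOf g = q ^ k at hk
      rw [h] at hk
      exact hpq ((Nat.prime_dvd_prime_iff_eq hp.out hq.out).mp
        (hp.out.dvd_of_dvd_pow hk.dvd))
    · exact h
  have hb1 : b = 1 := by
    by_contra hb1
    have hQpow : ∀ g ∈ (Q : Subgroup G), g ^ q = 1 := by
      intro g hg
      rcases eq_or_ne g 1 with rfl | h
      · exact one_pow _
      · rw [← hQq g hg h, pow_orderOf_eq_one]
    have hQab : IsMulCommutative (Q : Subgroup G) := by
      refine ⟨⟨fun u v => ?_⟩⟩
      apply Subtype.ext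
      have h1 : ⁅(u : G), (v : G)⁆ ∈ P :=
        commutator_mem_commutator (mem_top _) (mem_top _)
      have h2 : ⁅(u : G), (v : G)⁆ ∈ (Q : Subgroup G) := by
        rw [commutatorElement_def]
        exact mul_mem (mul_mem (mul_mem u.2 v.2) (inv_mem u.2)) (inv_mem v.2)
      by_cases h3 : ⁅(u : G), (v : G)⁆ = 1
      · exact commutatorElement_eq_one_iff_mul_comm.mp h3
      · exact absurd (hQq _ h2 h3) (hPq _ h1)
    have hX : ¬ q ∣ Nat.card P := by
      rw [hPcard]
      exact fun hd => hpq ((Nat.prime_dvd_prime_iff_eq hq.out hp.out).mp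
        (hq.out.dvd_of_dvd_pow hd)).symm
    have hQ2 : q ^ 2 ≤ Nat.card (Q : Subgroup G) := by
      rw [hQcard]
      exact Nat.pow_le_pow_right hq.out.pos (by omega)
    have h1 := Cfsg.Agent.CoprimeAct.le_iSup_centralizer_elem hQab hQpow hQ2 hX
      (by rw [P.normalizer_eq_top]; exact le_top)
    have hbot : P ≤ ⊥ := h1.trans (iSup_le fun g => by
      intro y hy
      by_contra hy1
      rw [mem_bot] at hy1
      have hyp : orderOf y = p := by
        rcases hord y with h | h | h
        · exact absurd h hy1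
        · exact h
        · exact absurd h (hPq _ hy.1)
      exact hcop g y (hQq g g.2.1 g.2.2) hyp (by
        rw [← mem_centralizer_singleton_iff.mp hy.2, mul_inv_cancel_right]))
    exact hp1 (by rw [← hx₀p, mem_bot.mp (hbot hx₀), orderOf_one])
  subst hb1
  rw [pow_one] at hQcard
  refine ⟨rfl, fun S => ?_, ?_, hcop⟩
  · rw [hS S]
    exact ⟨inferInstance, hPcomm, hPpow⟩
  have hqdvd : q ∣ Nat.card G := hcard ▸ dvd_mul_of_dvd_right (dvd_pow_self q one_ne_zero) _
  obtain ⟨x, hx⟩ := exists_prime_orderOf_dvd_card' q hqdvd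
  have hc : P.IsComplement' (zpowers x) := by
    refine isComplement'_of_coprime ?_ ?_
    · rw [hPcard, Nat.card_zpowers, hx, hcard, pow_one]
    · rw [hPcard, Nat.card_zpowers, hx]
      exact Nat.Coprime.pow_left a ((Nat.coprime_primes hp.out hq.out).mpr hpq)
  haveI : Nontrivial (Additive P) := nontrivial_additive P (fun h => hp1 (by
    rw [h, mem_bot] at hx₀
    rw [← hx₀p, hx₀, orderOf_one]))
  have hφP : ∀ (φ : MulAut G) v, v ∈ P → φ v ∈ P := fun φ v hv =>
    Subgroup.mem_comap.mp ((characteristic_iff_comap_eq.mp hPchar φ).ge hv)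
  have hF : ∀ y ∈ P, x * y * x⁻¹ = y → y = 1 := by
    intro y hy e
    rcases hord y with h | h | h
    · exact h
    · exact absurd e (hcop x y hx h)
    · exact absurd h (hPq y hy)
  have hordP : ∀ v : Additive P, v ≠ 0 → orderOf (v.toMul : G) = p := by
    intro v hv
    rcases hord (v.toMul : G) with h | h | h
    · exact absurd (Additive.toMul.injective (Subtype.ext h)) hv
    · exact h
    · exact absurd h (hPq _ v.toMul.2)
  have hann : ∀ t ∈ CycMod.gen (conjEnd P x), ∀ v : Additive P, v ≠ 0 → t v = 0 → t = 0 :=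
    fun t ht v hv htv => CycMod.eq_zero_of_transitive _ (fun v w hv hw => by
      obtain ⟨φ, hφ⟩ := htr _ _ ((hordP v hv).trans (hordP w hw).symm)
      obtain ⟨τ, h1, -, h2⟩ := semilinear_of_aut hc φ (hφP φ)
      exact ⟨τ, Additive.toMul.injective (Subtype.ext ((h1 v.toMul).trans hφ)), h2⟩) ht hv htv
  refine primitive_of_cover hpq fun i hi => ?_
  obtain ⟨φ, hφ⟩ := htr x (x ^ i) (by
    rw [Nat.Coprime.orderOf_pow]
    rw [hx]
    exact (Nat.Prime.coprime_iff_not_dvd hq.out).mpr hi)
  obtain ⟨τ, -, h2, -⟩ := semilinear_of_aut hc φ (hφP φ)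
  exact CycMod.mem_powers_of_semilinear (end_torsion hPpow) (end_pow_q hx) (end_fpf hF) hann τ
    (h2 i hφ)

theorem backward {p q n : ℕ} [hp : Fact p.Prime] [hq : Fact q.Prime] (hpq : p ≠ q) (hn : 1 ≤ n)
    (hcard : Nat.card G = p ^ n * q)
    (hS : ∀ S : Sylow p G, (S : Subgroup G).Normal ∧ Cfsg.IsElementaryAbelian p (S : Subgroup G))
    (hprim : orderOf (p : ZMod q) = q - 1)
    (hcop : ∀ x y : G, orderOf x = q → orderOf y = p → x * y * x⁻¹ ≠ y) :
    Nat.card (MulAction.orbitRel.Quotient (MulAut G) G) = 3 := by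
  have hp1 := hp.out.ne_one
  have hq1 := hq.out.ne_one
  have hpd : p ∣ Nat.card G := hcard ▸ dvd_mul_of_dvd_left (dvd_pow_self p (by omega)) _
  have hqd : q ∣ Nat.card G := hcard ▸ dvd_mul_left q _
  obtain ⟨S⟩ : Nonempty (Sylow p G) := inferInstance
  obtain ⟨hSn, hSc, hSe⟩ := hS S
  set P : Subgroup G := (S : Subgroup G) with hPdef
  haveI := hSn
  haveI := hSc
  have hPcard : Nat.card P = p ^ n := by
    rw [hPdef, S.card_eq_multiplicity, hcard]
    congr 1
    rw [Nat.factorization_mul (pow_ne_zero _ hp.out.ne_zero) hq.out.ne_zero,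
      Nat.Prime.factorization_pow hp.out, hq.out.factorization]
    simp [Finsupp.single_apply, hpq.symm]
  have hPi : P.index = q := by
    have := P.card_mul_index
    rw [hPcard, hcard] at this
    exact Nat.eq_of_mul_eq_mul_left (pow_pos hp.out.pos _) this
  have hpow : ∀ g : G, g ^ q ∈ P := by
    intro g
    have := P.pow_index_mem g
    rwa [hPi] at this
  have hPord : ∀ g ∈ P, g ≠ 1 → orderOf g = p := fun g hg h1 => orderOf_eq_prime (hSe g hg) h1
  have hord : ∀ g : G, g = 1 ∨ orderOf g = p ∨ orderOf g = q := by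
    intro g
    by_cases hg1 : g = 1
    · exact Or.inl hg1
    right
    by_cases hgq : g ^ q = 1
    · exact Or.inr (orderOf_eq_prime hgq hg1)
    · left
      by_contra hne
      have hgP : g ∉ P := fun h => hne (hPord g h hg1)
      have hgp1 : g ^ p ≠ 1 := fun h => hne (orderOf_eq_prime h hg1)
      have h1 : (g ^ p) ^ q = 1 := by rw [← pow_mul, mul_comm, pow_mul, hSe _ (hpow g)]
      refine hcop (g ^ p) (g ^ q) (orderOf_eq_prime h1 hgp1) (hPord _ (hpow g) hgq) ?_
      rw [((Commute.refl g).pow_pow p q).eq, mul_inv_cancel_right]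
  obtain ⟨x, hx⟩ := exists_prime_orderOf_dvd_card' q hqd
  have hc : P.IsComplement' (zpowers x) := by
    refine isComplement'_of_coprime ?_ ?_
    · rw [hPcard, Nat.card_zpowers, hx, hcard]
    · rw [hPcard, Nat.card_zpowers, hx]
      exact Nat.Coprime.pow_left n ((Nat.coprime_primes hp.out hq.out).mpr hpq)
  have hF : ∀ y ∈ P, x * y * x⁻¹ = y → y = 1 := by
    intro y hy e
    by_contra h
    exact hcop x y hx (hPord y hy h) e
  haveI : Nontrivial (Additive P) := nontrivial_additive P (fun h => by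
    rw [h, card_bot] at hPcard
    have := Nat.one_lt_pow (by omega : n ≠ 0) hp.out.one_lt
    omega)
  have hV := end_torsion (p := p) (P := P) hSe
  have ha := end_pow_q (P := P) hx
  have hf := end_fpf (P := P) hF
  have hcardV : ∃ m, Nat.card (Additive P) = p ^ m :=
    ⟨n, (Nat.card_congr Additive.toMul).trans hPcard⟩
  have hann : ∀ t ∈ CycMod.gen (conjEnd P x), ∀ v : Additive P, v ≠ 0 → t v = 0 → t = 0 :=
    fun t ht v hv htv => CycMod.eq_zero_of_primitive hV ha hf hpq hcardV hprim ht hv htv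
  have hmemP : ∀ g : G, orderOf g = p → g ∈ P := by
    intro g hg
    have hz : IsPGroup p (zpowers g) := IsPGroup.of_card (n := 1) (by rw [Nat.card_zpowers, hg, pow_one])
    have h1 := hz.inf_normalizer_sylow S
    have h2 : g ∈ zpowers g ⊓ normalizer ((S : Subgroup G) : Set G) :=
      ⟨mem_zpowers g, by rw [normalizer_eq_top]; exact mem_top g⟩
    exact (h1.le h2).2
  have toX : ∀ g : G, orderOf g = q → ∃ φ : MulAut G, φ x = g := by
    intro g hg
    have hcz : ∀ h : G, orderOf h = q → Nat.card (zpowers h) = q ^ (Nat.card G).factorization q := by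
      intro h hh
      rw [Nat.card_zpowers, hh, hcard,
        Nat.factorization_mul (pow_ne_zero _ hp.out.ne_zero) hq.out.ne_zero,
        Nat.Prime.factorization_pow hp.out, hq.out.factorization]
      simp [Finsupp.single_apply, hpq]
    obtain ⟨c, hc'⟩ := MulAction.exists_smul_eq G (Sylow.ofCard (zpowers x) (hcz x hx))
      (Sylow.ofCard (zpowers g) (hcz g hg))
    have hgm : g ∈ ((c • Sylow.ofCard (zpowers x) (hcz x hx) : Sylow q G) : Subgroup G) := by
      rw [hc', Sylow.coe_ofCard]
      exact mem_zpowers g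
    rw [Sylow.coe_subgroup_smul, Sylow.coe_ofCard, mem_pointwise_smul_iff_inv_smul_mem] at hgm
    obtain ⟨i, hi⟩ := mem_powers_iff_mem_zpowers.mpr hgm
    simp only at hi
    have hgi : g = MulAut.conj c (x ^ i) := by
      rw [hi, MulAut.smul_def]
      simp [mul_assoc]
    have hnd : ¬ q ∣ i := by
      rintro ⟨m, rfl⟩
      rw [pow_mul, ← hx, pow_orderOf_eq_one, one_pow, map_one] at hgi
      rw [hgi, orderOf_one] at hg
      exact hq1 hg.symm
    obtain ⟨j, hj⟩ := cover_of_primitive hpq hprim hnd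
    obtain ⟨τ, hτ⟩ := CycMod.exists_semilinear hV ha hann hj
    obtain ⟨φ, hφ, -⟩ := exists_aut hc hx hnd τ hτ
    exact ⟨φ.trans (MulAut.conj c), by rw [MulEquiv.trans_apply, hφ, hgi]⟩
  refine card_orbits hpq hpd hqd hord fun g h e => ?_
  rcases hord g with rfl | hg | hg
  · exact ⟨1, by rw [orderOf_one] at e; simp [orderOf_eq_one_iff.mp e.symm]⟩
  · obtain ⟨τ, hτ1, hτ2⟩ := CycMod.exists_linear_map hann
      (Additive.ofMul (⟨g, hmemP g hg⟩ : P)) (Additive.ofMul ⟨h, hmemP h (e ▸ hg)⟩)
      (fun e0 => hp1 (by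
        have := congrArg (fun v : Additive P => ((Additive.toMul v : P) : G)) e0
        rw [← hg]; simpa using this))
      (fun e0 => hp1 (by
        have := congrArg (fun v : Additive P => ((Additive.toMul v : P) : G)) e0
        rw [← hg, e]; simpa using this))
    obtain ⟨φ, -, hφ⟩ := exists_aut hc hx (i := 1) (fun hd => hq1 (Nat.dvd_one.mp hd)) τ
      (fun u => by rw [pow_one]; exact hτ2 u)
    refine ⟨φ, ?_⟩
    have := hφ ⟨g, hmemP g hg⟩
    rw [hτ1] at this
    exact this
  · obtain ⟨φ, hφ⟩ := toX g hg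
    obtain ⟨ψ, hψ⟩ := toX h (e ▸ hg)
    exact ⟨φ.symm.trans ψ, by rw [MulEquiv.trans_apply, ← hφ, MulEquiv.symm_apply_apply, hψ]⟩

theorem exists_two_primes (hnpp : ¬ IsPrimePow (Nat.card G)) (hnt : Nat.card G ≠ 1) :
    ∃ p q : ℕ, p.Prime ∧ q.Prime ∧ p ≠ q ∧ p ∣ Nat.card G ∧ q ∣ Nat.card G := by
  set n := Nat.card G with hn
  refine ⟨n.minFac, ?_⟩
  have hp := Nat.minFac_prime hnt
  by_contra hcon
  push Not at hcon
  apply hnpp
  rw [isPrimePow_iff_unique_prime_dvd]
  refine ⟨n.minFac, ⟨hp, Nat.minFac_dvd n⟩, ?_⟩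
  rintro q ⟨hq, hqd⟩
  by_contra hne
  exact hcon q hp hq (Ne.symm hne) (Nat.minFac_dvd n) hqd

theorem forward (hnpp : ¬ IsPrimePow (Nat.card G)) (hnt : Nat.card G ≠ 1)
    (h3 : Nat.card (MulAction.orbitRel.Quotient (MulAut G) G) = 3) :
    ∃ (p q n : ℕ) (_ : Fact p.Prime) (_ : Fact q.Prime), p ≠ q ∧ 1 ≤ n ∧ Nat.card G = p ^ n * q ∧
      (∀ P : Sylow p G, (P : Subgroup G).Normal ∧ Cfsg.IsElementaryAbelian p (P : Subgroup G)) ∧
      orderOf (p : ZMod q) = q - 1 ∧
      ∀ x y : G, orderOf x = q → orderOf y = p → x * y * x⁻¹ ≠ y := by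
  obtain ⟨p, q, hp, hq, hpq, hpd, hqd⟩ := exists_two_primes hnpp hnt
  haveI := Fact.mk hp
  haveI := Fact.mk hq
  obtain ⟨hord, htr⟩ := orbit_facts hpq hpd hqd h3
  obtain ⟨a, m, hm, hmG⟩ := Nat.exists_eq_pow_mul_and_not_dvd (Nat.card_pos (α := G)).ne' p hp.ne_one
  have hm0 : m ≠ 0 := fun h => hm (h ▸ dvd_zero p)
  have hprimes : ∀ r : ℕ, r.Prime → r ∣ Nat.card G → r = p ∨ r = q := by
    intro r hr hrd
    haveI := Fact.mk hr
    obtain ⟨g, hg⟩ := exists_prime_orderOf_dvd_card' r hrd
    rcases hord g with h | h | h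
    · rw [h, orderOf_one] at hg; exact absurd hg.symm hr.ne_one
    · exact Or.inl (hg.symm.trans h)
    · exact Or.inr (hg.symm.trans h)
  have hmq : m = q ^ m.primeFactorsList.length := by
    refine Nat.eq_prime_pow_of_unique_prime_dvd hm0 fun {r} hr hrd => ?_
    exact (hprimes r hr (hmG ▸ hrd.mul_left _)).resolve_left fun h => hm (h ▸ hrd)
  set b := m.primeFactorsList.length
  rw [hmq] at hmG
  have ha : 1 ≤ a := by
    rcases Nat.eq_zero_or_pos a with rfl | h
    · exfalso
      rw [pow_zero, one_mul] at hmG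
      exact hm (hmq ▸ hmG ▸ hpd)
    · exact h
  have hb : 1 ≤ b := by
    rcases Nat.eq_zero_or_pos b with h | h
    · exfalso
      rw [h, pow_zero, mul_one] at hmG
      exact hpq ((Nat.prime_dvd_prime_iff_eq hq hp).mp (hq.dvd_of_dvd_pow (hmG ▸ hqd))).symm
    · exact h
  have hne : ∃ x₀ ∈ commutator G, x₀ ≠ 1 := by
    by_contra hcon
    push Not at hcon
    obtain ⟨u, hu⟩ := exists_prime_orderOf_dvd_card' p hpd
    obtain ⟨v, hv⟩ := exists_prime_orderOf_dvd_card' q hqd
    have hc : Commute u v := commutatorElement_eq_one_iff_mul_comm.mp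
      (hcon _ (commutator_mem_commutator (mem_top u) (mem_top v)))
    have hmul := hc.orderOf_mul_eq_mul_orderOf_of_coprime
      (by rw [hu, hv]; exact (Nat.coprime_primes hp hq).mpr hpq)
    rw [hu, hv] at hmul
    rcases hord (u * v) with h | h | h
    · rw [h, orderOf_one] at hmul
      exact hp.ne_one (Nat.eq_one_of_mul_eq_one_right hmul.symm)
    · rw [h] at hmul
      exact hq.ne_one (mul_right_eq_self₀.mp hmul.symm |>.resolve_right hp.ne_zero)
    · rw [h] at hmul
      exact hp.ne_one (mul_left_eq_self₀.mp hmul.symm |>.resolve_right hq.ne_zero)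
  obtain ⟨x₀, hx₀, hx1⟩ := hne
  rcases (hord x₀).resolve_left hx1 with h | h
  · obtain ⟨he1, h1, h2, h3'⟩ := forward_main hpq ha hb hmG hord htr x₀ hx₀ h
    exact ⟨p, q, a, inferInstance, inferInstance, hpq, ha, by rw [hmG, he1, pow_one], h1, h2, h3'⟩
  · obtain ⟨he1, h1, h2, h3'⟩ := forward_main (p := q) (q := p) (Ne.symm hpq) hb ha
      (by rw [hmG, mul_comm]) (fun g => (hord g).imp_right Or.symm) htr x₀ hx₀ h
    exact ⟨q, p, b, inferInstance, inferInstance, Ne.symm hpq, hb,
      by rw [hmG, he1, pow_one, mul_comm], h1, h2, h3'⟩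

end Cfsg.Agent.ThreeOrbits
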